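import Mathlib
import Cfsg.Agent.Lib.Helper35.JR.Defs

/-!
# JR (S3206), package [EL]: from `NLoc N`, `N ⊴ E`, `C_E(N) = 1` to `ELoc E`
-/

set_option autoImplicit false
open scoped Pointwise

namespace Cfsg.Agent.Lib.Helper73.JR

open Cfsg.Agent.Lib.Helper35.JR

universe u

/-- [EL] -/
theorem pkgEL : PkgEL.{u} := by
  intro E _ _ hab N _ hNL hcen
  classical
  have : Fact (Nat.Prime 2) := ⟨Nat.prime_two⟩
  obtain ⟨hsimple, hsq, hP4, hPaut⟩ := hNL
  have hcent : ∀ c : E, (∀ n ∈ N, n * c = c * n) → c = 1 := by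
    intro c hc
    have : c ∈ Subgroup.centralizer (N : Set E) := Subgroup.mem_centralizer_iff.mpr hc
    rw [hcen] at this
    exact Subgroup.mem_bot.mp this
  -- a special Sylow subgroup: the image of a Sylow subgroup of `N`
  obtain ⟨P₀⟩ : Nonempty (Sylow 2 ↥N) := inferInstance
  have hP₀2 : IsPGroup 2 ↥((P₀ : Subgroup ↥N).map N.subtype) := P₀.isPGroup'.map N.subtype
  obtain ⟨T₁, hT₁⟩ := hP₀2.exists_le_sylow
  have hT₁le : ∀ x ∈ (T₁ : Subgroup E), x ∈ (P₀ : Subgroup ↥N).map N.subtype := by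
    intro x hx
    obtain ⟨k, hk⟩ := T₁.isPGroup' ⟨x, hx⟩
    have hxk : x ^ (2 ^ k) = 1 := by simpa using congrArg Subtype.val hk
    have hα : (MulAut.conjNormal x : MulAut ↥N) ^ (2 ^ k) = 1 := by
      rw [← map_pow, hxk, map_one]
    have hfix : ∀ y ∈ (P₀ : Subgroup ↥N), (MulAut.conjNormal x : MulAut ↥N) y = y := by
      intro y hy
      apply Subtype.ext
      rw [MulAut.conjNormal_apply]
      have hyT : (y : E) ∈ (T₁ : Subgroup E) := hT₁ ⟨y, hy, rfl⟩
      rw [hab T₁ x hx (y : E) hyT]; group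
    obtain ⟨v, hv, hvx⟩ := hPaut (MulAut.conjNormal x) k hα P₀ hfix
    have h1 : (v : E)⁻¹ * x = 1 := by
      apply hcent
      intro n hn
      have h2 : x * n * x⁻¹ = (v : E) * n * (v : E)⁻¹ := by
        have := congrArg Subtype.val (hvx ⟨n, hn⟩)
        rw [MulAut.conjNormal_apply] at this
        exact this
      calc n * ((v : E)⁻¹ * x) = (v : E)⁻¹ * ((v : E) * n * (v : E)⁻¹) * x := by group
        _ = (v : E)⁻¹ * (x * n * x⁻¹) * x := by rw [h2]
        _ = (v : E)⁻¹ * x * n := by group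
    have hxv : x = (v : E) := by
      calc x = (v : E) * ((v : E)⁻¹ * x) := by group
        _ = (v : E) := by rw [h1, mul_one]
    rw [hxv]
    exact ⟨v, hv, rfl⟩
  have hT₁eq : (T₁ : Subgroup E) = (P₀ : Subgroup ↥N).map N.subtype := le_antisymm hT₁le hT₁
  have hT₁N : (T₁ : Subgroup E) ≤ N := by
    rw [hT₁eq]; rintro _ ⟨y, -, rfl⟩; exact y.2
  have hT₁card : Nat.card (T₁ : Subgroup E) = 4 := by
    rw [hT₁eq, Subgroup.card_map_of_injective N.subtype_injective]
    exact (hP4 P₀).1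
  have hT₁exp : ∀ x ∈ (T₁ : Subgroup E), x ^ 2 = 1 := by
    intro x hx
    rw [hT₁eq] at hx
    obtain ⟨y, hy, rfl⟩ := hx
    have := congrArg Subtype.val ((hP4 P₀).2 y hy)
    simpa using this
  -- all Sylow subgroups
  have hA : ∀ T : Sylow 2 E, (T : Subgroup E) ≤ N ∧ Nat.card (T : Subgroup E) = 4 ∧
      ∀ x ∈ (T : Subgroup E), x ^ 2 = 1 := by
    intro T
    obtain ⟨g, rfl⟩ := MulAction.exists_smul_eq E T₁ T
    have hmem : ∀ x, x ∈ ((g • T₁ : Sylow 2 E) : Subgroup E) ↔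
        g⁻¹ * x * g ∈ (T₁ : Subgroup E) := by
      intro x
      rw [Sylow.coe_subgroup_smul, Subgroup.mem_pointwise_smul_iff_inv_smul_mem]
      simp [MulAut.smul_def]
    refine ⟨?_, ?_, ?_⟩
    · intro x hx
      have h1 := hT₁N ((hmem x).mp hx)
      have e : x = g * (g⁻¹ * x * g) * g⁻¹ := by group
      rw [e]
      exact (inferInstance : N.Normal).conj_mem _ h1 g
    · rw [Sylow.card_eq_multiplicity, ← Sylow.card_eq_multiplicity T₁, hT₁card]
    · intro x hx
      have h1 := hT₁exp _ ((hmem x).mp hx)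
      rw [pow_two] at h1
      have e : x ^ 2 = g * ((g⁻¹ * x * g) * (g⁻¹ * x * g)) * g⁻¹ := by
        rw [pow_two]; group
      rw [e, h1]; group
  -- squares generate
  have hsqE : Subgroup.closure {y : E | ∃ x : E, x ^ 2 = y} = ⊤ := by
    have hNle : N ≤ Subgroup.closure {y : E | ∃ x : E, x ^ 2 = y} := by
      have h1 : (⊤ : Subgroup ↥N).map N.subtype = N := by
        rw [← MonoidHom.range_eq_map, Subgroup.range_subtype]
      rw [← h1, ← hsq, MonoidHom.map_closure]
      apply Subgroup.closure_mono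
      rintro _ ⟨y, ⟨x, rfl⟩, rfl⟩
      exact ⟨(x : E), by simp⟩
    have hodd : Odd N.index := by
      rw [← Nat.not_even_iff_odd]
      intro hev
      obtain ⟨j, hj⟩ := hev
      have h1 : N.index * Nat.card N = Nat.card E := Subgroup.index_mul_card N
      have h2 : 4 ∣ Nat.card N := by
        have := Subgroup.card_dvd_of_le hT₁N
        rwa [hT₁card] at this
      have h3 : 2 ^ 3 ∣ Nat.card E := by
        obtain ⟨c, hc⟩ := h2
        rw [← h1, hj, hc]
        exact ⟨j * c, by ring⟩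
      have h4 := Sylow.card_eq_multiplicity T₁
      rw [hT₁card] at h4
      have h5 : 3 ≤ (Nat.card E).factorization 2 :=
        (Nat.Prime.pow_dvd_iff_le_factorization Nat.prime_two Nat.card_pos.ne').mp h3
      have h6 : (2 : ℕ) ^ 3 ≤ 2 ^ (Nat.card E).factorization 2 :=
        Nat.pow_le_pow_right (by norm_num) h5
      omega
    obtain ⟨j, hj⟩ := hodd
    rw [eq_top_iff]
    intro e _
    have h1 : e ^ N.index ∈ N := Subgroup.pow_index_mem N e
    have h2 : e = (e ^ (j + 1)) ^ 2 * (e ^ N.index)⁻¹ := by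
      rw [hj, ← pow_mul]
      have e3 : (j + 1) * 2 = (2 * j + 1) + 1 := by ring
      rw [e3, pow_succ]; group
    rw [h2]
    exact Subgroup.mul_mem _ (Subgroup.subset_closure ⟨e ^ (j + 1), rfl⟩)
      (Subgroup.inv_mem _ (hNle h1))
  refine ⟨hsqE, fun T => ⟨(hA T).2.1, (hA T).2.2⟩, ?_⟩
  intro β k hβ T hfix
  obtain ⟨hTN, hTcard, hTexp⟩ := hA T
  have hsimple' : IsSimpleGroup ↥N := hsimple
  have hmapN : N.map β.toMonoidHom = N := by
    have hn' : (N.map β.toMonoidHom).Normal :=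
      Subgroup.Normal.map inferInstance _ β.surjective
    have hK : ((N ⊓ N.map β.toMonoidHom).subgroupOf N).Normal := inferInstance
    rcases hK.eq_bot_or_eq_top with h | h
    · exfalso
      rw [Subgroup.subgroupOf_eq_bot] at h
      have hT1 : (T : Subgroup E) ≤ N ⊓ N.map β.toMonoidHom := by
        intro x hx
        exact ⟨hTN hx, ⟨x, hTN hx, hfix x hx⟩⟩
      have hT2 : (T : Subgroup E) ≤ ⊥ := h hT1 hTN
      have hc1 : Nat.card (T : Subgroup E) = 1 := by
        rw [le_bot_iff.mp hT2]; exact Subgroup.card_bot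
      omega
    · rw [Subgroup.subgroupOf_eq_top] at h
      have h1 : N ≤ N.map β.toMonoidHom := h.trans inf_le_right
      exact (Subgroup.eq_of_le_of_card_ge h1
        (by rw [Subgroup.card_map_of_injective β.injective])).symm
  have hβN : ∀ n ∈ N, β n ∈ N := fun n hn => by
    have : β n ∈ N.map β.toMonoidHom := ⟨n, hn, rfl⟩
    rwa [hmapN] at this
  have hβsN : ∀ n ∈ N, β.symm n ∈ N := fun n hn => by
    have : n ∈ N.map β.toMonoidHom := by rw [hmapN]; exact hn
    obtain ⟨m, hm, rfl⟩ := this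
    simpa using hm
  let α : ↥N ≃* ↥N :=
    { toFun := fun n => ⟨β n, hβN n n.2⟩
      invFun := fun n => ⟨β.symm n, hβsN n n.2⟩
      left_inv := fun n => Subtype.ext (by simp)
      right_inv := fun n => Subtype.ext (by simp)
      map_mul' := fun a b => Subtype.ext (by simp) }
  have hαpow : ∀ (j : ℕ) (n : ↥N), (((α ^ j) n : ↥N) : E) = (β ^ j) n := by
    intro j
    induction j with
    | zero => intro n; simp
    | succ j ih =>
      intro n
      rw [pow_succ, pow_succ, MulAut.mul_apply, MulAut.mul_apply, ih (α n)]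
      rfl
  have hα2 : α ^ (2 ^ k) = 1 := by
    apply MulEquiv.ext
    intro n
    apply Subtype.ext
    rw [hαpow, hβ]; rfl
  have hPmem : ∀ y : ↥N, y ∈ ((T.subtype hTN : Sylow 2 ↥N) : Subgroup ↥N) ↔
      (y : E) ∈ (T : Subgroup E) := by
    intro y
    rw [Sylow.coe_subtype]
    exact Subgroup.mem_subgroupOf
  have hαfix : ∀ y ∈ ((T.subtype hTN : Sylow 2 ↥N) : Subgroup ↥N), α y = y :=
    fun y hy => Subtype.ext (hfix (y : E) ((hPmem y).mp hy))
  obtain ⟨v, hv, hvx⟩ := hPaut α k hα2 (T.subtype hTN) hαfix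
  refine ⟨(v : E), (hPmem v).mp hv, ?_⟩
  intro e
  have hc : e⁻¹ * (v : E)⁻¹ * β e * (v : E) = 1 := by
    apply hcent
    intro n hn
    have hen : e * n * e⁻¹ ∈ N := (inferInstance : N.Normal).conj_mem n hn e
    have h1 : β (e * n * e⁻¹) = (v : E) * (e * n * e⁻¹) * (v : E)⁻¹ :=
      congrArg Subtype.val (hvx ⟨e * n * e⁻¹, hen⟩)
    have h2 : β n = (v : E) * n * (v : E)⁻¹ := congrArg Subtype.val (hvx ⟨n, hn⟩)
    have h3 : β e * ((v : E) * n * (v : E)⁻¹) * (β e)⁻¹ =
        (v : E) * (e * n * e⁻¹) * (v : E)⁻¹ := by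
      rw [← h2, ← h1]; simp [map_mul, map_inv]
    calc n * (e⁻¹ * (v : E)⁻¹ * β e * (v : E))
        = e⁻¹ * (v : E)⁻¹ * ((v : E) * (e * n * e⁻¹) * (v : E)⁻¹) * β e * (v : E) := by group
      _ = e⁻¹ * (v : E)⁻¹ * (β e * ((v : E) * n * (v : E)⁻¹) * (β e)⁻¹) * β e * (v : E) := by
          rw [h3]
      _ = e⁻¹ * (v : E)⁻¹ * β e * (v : E) * n := by group
  calc β e = (v : E) * e * (e⁻¹ * (v : E)⁻¹ * β e * (v : E)) * (v : E)⁻¹ := by group
    _ = (v : E) * e * (v : E)⁻¹ := by rw [hc, mul_one]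

end Cfsg.Agent.Lib.Helper73.JR
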