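import Mathlib
import Cfsg.Agent.Lib.Helper35.JR.Defs

/-!
# JR (S3206), package [ZC]: `Z(C_G(t)) = ⟨t⟩`
-/

set_option autoImplicit false

namespace Cfsg.Agent.Lib.Helper73.JR

open Cfsg.Agent.Lib.Helper35.JR

universe u

/-- elements of the join of two elementwise commuting subgroups are products. -/
theorem mem_sup_comm_jr_h73 {G : Type u} [Group G] (S M : Subgroup G)
    (hcomm : ∀ s ∈ S, ∀ x ∈ M, s * x = x * s) {y : G} (hy : y ∈ S ⊔ M) :
    ∃ s ∈ S, ∃ x ∈ M, y = s * x := by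
  have hcl : S ⊔ M = Subgroup.closure ((S : Set G) ∪ M) := by
    rw [Subgroup.closure_union, Subgroup.closure_eq, Subgroup.closure_eq]
  rw [hcl] at hy
  induction hy using Subgroup.closure_induction with
  | mem z hz =>
    rcases hz with hz | hz
    · exact ⟨z, hz, 1, M.one_mem, by simp⟩
    · exact ⟨1, S.one_mem, z, hz, by simp⟩
  | one => exact ⟨1, S.one_mem, 1, M.one_mem, by simp⟩
  | mul a b _ _ iha ihb =>
    obtain ⟨s, hs, x, hx, rfl⟩ := iha
    obtain ⟨s', hs', x', hx', rfl⟩ := ihb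
    refine ⟨s * s', S.mul_mem hs hs', x * x', M.mul_mem hx hx', ?_⟩
    calc s * x * (s' * x') = s * (x * s') * x' := by group
      _ = s * (s' * x) * x' := by rw [hcomm s' hs' x hx]
      _ = s * s' * (x * x') := by group
  | inv a _ iha =>
    obtain ⟨s, hs, x, hx, rfl⟩ := iha
    refine ⟨s⁻¹, S.inv_mem hs, x⁻¹, M.inv_mem hx, ?_⟩
    rw [mul_inv_rev, hcomm s⁻¹ (S.inv_mem hs) x⁻¹ (M.inv_mem hx)]

/-- [ZC] -/
theorem pkgZC : PkgZC.{u} := by
  intro G _ t E hD N hN x hx hcen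
  obtain ⟨h1, h2, hcomm, hinf, hsup⟩ := hD
  rw [← hsup] at hx
  obtain ⟨a, ha, e, he, rfl⟩ := mem_sup_comm_jr_h73 _ _ hcomm hx
  have he1 : (⟨e, he⟩ : ↥E) ∈ Subgroup.centralizer (N : Set ↥E) := by
    rw [Subgroup.mem_centralizer_iff]
    intro y hy
    apply Subtype.ext
    show (y : G) * e = e * (y : G)
    have hyC : (y : G) ∈ Subgroup.centralizer ({t} : Set G) := h2 y.2
    have h3 := hcen (y : G) hyC
    have h4 := hcomm a ha (y : G) y.2
    calc (y : G) * e = a⁻¹ * (a * (y : G)) * e := by group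
      _ = a⁻¹ * ((y : G) * a) * e := by rw [h4]
      _ = a⁻¹ * ((y : G) * (a * e)) := by group
      _ = a⁻¹ * (a * e * (y : G)) := by rw [h3]
      _ = e * (y : G) := by group
  rw [hN, Subgroup.mem_bot] at he1
  have he' : e = 1 := congrArg Subtype.val he1
  rw [he', mul_one]
  exact ha

end Cfsg.Agent.Lib.Helper73.JR
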